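import Cfsg.Agent.H16.BR.Idx
import Cfsg.Agent.H847.IF.Abs
import Cfsg.Agent.H989.Fx.OmE
import Cfsg.Agent.S0242

/-!
# Indices of subgroups of `SL₂(q)` and `L₂(q²)`, `q` odd (helper215, for S5719)

* `min_sl2` : `(q + 1) / 2 ≤ |SL₂(q) : R|`, `q ≥ 5`; `norm_sl2` : normal subgroups;
* `min_psl2`, `card_psl2`;
* `odd_psl2` : a subgroup of `L₂(r)`, `8 ∣ r - 1`, without involutions has index at least `4 r`.
-/

set_option autoImplicit false
set_option linter.unusedSectionVars false

namespace Cfsg.Agent.H215.IFM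

open Subgroup Cfsg Cfsg.Agent.H16.BR
open Cfsg.Agent.LieClassical.SLTwoUnipotent (u l coe_u coe_l u_add u_zero l_add l_zero ext_coe)
open Matrix (SpecialLinearGroup ProjectiveSpecialLinearGroup)

section Gen

variable {F : Type*} [Field F] [Fintype F]

theorem mulc (A B : SpecialLinearGroup (Fin 2) F) :
    ((A * B : SpecialLinearGroup (Fin 2) F) : Matrix (Fin 2) (Fin 2) F) =
      (A : Matrix (Fin 2) (Fin 2) F) * (B : Matrix (Fin 2) (Fin 2) F) := rfl

theorem card_sl2 : Nat.card (SpecialLinearGroup (Fin 2) F) = Fintype.card F * (Fintype.card F ^ 2 - 1) := by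
  have h1 := Cfsg.Agent.S0242.result (F := F) rfl 2 (by norm_num)
  have hq : 2 ≤ Fintype.card F := Fintype.one_lt_card
  rw [Fin.prod_univ_two] at h1
  have h3 : Fintype.card F ^ 2 - Fintype.card F ^ 1 = (Fintype.card F - 1) * Fintype.card F := by
    rw [Nat.sub_mul, one_mul, pow_one, pow_two]
  simp only [Fin.val_zero, Fin.val_one, pow_zero] at h1
  rw [h3] at h1
  have h4 : (Fintype.card F - 1) * Nat.card (SpecialLinearGroup (Fin 2) F) =
      (Fintype.card F - 1) * (Fintype.card F * (Fintype.card F ^ 2 - 1)) := by rw [h1]; ring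
  exact Nat.eq_of_mul_eq_mul_left (by omega) h4

theorem sq_eq_one_iff_of_field {r : F} (h : r ^ 2 = 1) : r = 1 ∨ r = -1 := by
  have h1 : (r - 1) * (r + 1) = 0 := by linear_combination h
  rcases mul_eq_zero.1 h1 with h2 | h2
  · exact Or.inl (sub_eq_zero.1 h2)
  · exact Or.inr (eq_neg_of_add_eq_zero_left h2)

theorem mem_center2 {g : SpecialLinearGroup (Fin 2) F} :
    g ∈ center (SpecialLinearGroup (Fin 2) F) ↔ g = 1 ∨ g = -1 := by
  constructor
  · intro h
    obtain ⟨r, hr, hg⟩ := Matrix.SpecialLinearGroup.mem_center_iff.1 h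
    rw [Fintype.card_fin] at hr
    have hr' : r = 1 ∨ r = -1 := sq_eq_one_iff_of_field hr
    rcases hr' with rfl | rfl
    · left
      apply ext_coe
      rw [← hg]
      simp
    · right
      apply ext_coe
      rw [← hg]
      ext i j
      fin_cases i <;> fin_cases j <;> simp
  · rintro (rfl | rfl)
    · exact one_mem _
    · rw [Subgroup.mem_center_iff]
      intro g
      rw [mul_neg, neg_mul, mul_one, one_mul]

theorem neg_one_ne (h2 : (2 : F) ≠ 0) : (-1 : SpecialLinearGroup (Fin 2) F) ≠ 1 := by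
  intro h
  have h1 := congrArg (fun m : SpecialLinearGroup (Fin 2) F => m.1 0 0) h
  have h3 : (-1 : F) = 1 := by simpa using h1
  exact h2 (by linear_combination -h3)

theorem card_center2 (h2 : (2 : F) ≠ 0) : Nat.card (center (SpecialLinearGroup (Fin 2) F)) = 2 := by
  have h1 : ((center (SpecialLinearGroup (Fin 2) F) : Subgroup _) : Set (SpecialLinearGroup (Fin 2) F)) = {1, -1} := by
    ext g
    exact mem_center2
  have h3 : Nat.card (center (SpecialLinearGroup (Fin 2) F)) =
      ((center (SpecialLinearGroup (Fin 2) F) : Subgroup _) : Set (SpecialLinearGroup (Fin 2) F)).ncard := rfl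
  rw [h3, h1, Set.ncard_pair (neg_one_ne h2).symm]

theorem card_psl2 (h2 : (2 : F) ≠ 0) :
    2 * Nat.card (ProjectiveSpecialLinearGroup (Fin 2) F) = Fintype.card F * (Fintype.card F ^ 2 - 1) := by
  have h1 := (center (SpecialLinearGroup (Fin 2) F)).card_mul_index
  rw [card_center2 h2, card_sl2] at h1
  exact h1

theorem two_ne (h : Odd (Fintype.card F)) : (2 : F) ≠ 0 := by
  intro h2
  have h3 : ringChar F ∣ 2 := (ringChar.spec F 2).1 (by exact_mod_cast h2)
  have h4 : ringChar F = 2 := by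
    rcases (Nat.dvd_prime Nat.prime_two).1 h3 with h5 | h5
    · have := CharP.char_ne_one F (ringChar F)
      exact absurd h5 this
    · exact h5
  rw [FiniteField.even_card_iff_char_two] at h4
  rw [Nat.odd_iff] at h
  omega

/-- the indices of the proper subgroups of `SL₂(q)` -/
theorem min_sl2 (h5 : 5 ≤ Fintype.card F) (hodd : Odd (Fintype.card F)) {R : Subgroup (SpecialLinearGroup (Fin 2) F)}
    (hR : R ≠ ⊤) : Fintype.card F + 1 ≤ 2 * R.index := by
  by_cases h12 : 12 ≤ Fintype.card F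
  · have := idx_sl_two h12 hR
    omega
  have hc := card_psl2 (two_ne hodd)
  have key : ∀ B : ℕ, B.factorial < Nat.card (ProjectiveSpecialLinearGroup (Fin 2) F) → B < R.index :=
    fun B hB => idx_of_card (quasi_sl_two (by omega)) hB hR
  have h6 : Fintype.card F = 5 ∨ Fintype.card F = 7 ∨ Fintype.card F = 9 ∨ Fintype.card F = 11 := by
    obtain ⟨k, hk⟩ := hodd
    omega
  rcases h6 with h6 | h6 | h6 | h6
  · rw [h6] at hc ⊢
    have := key 2 (by norm_num [Nat.factorial]; omega)
    omega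
  · rw [h6] at hc ⊢
    have := key 3 (by norm_num [Nat.factorial]; omega)
    omega
  · rw [h6] at hc ⊢
    have := key 4 (by norm_num [Nat.factorial]; omega)
    omega
  · rw [h6] at hc ⊢
    have := key 5 (by norm_num [Nat.factorial]; omega)
    omega

/-- the normal subgroups of `SL₂(q)` -/
theorem norm_sl2 (h5 : 5 ≤ Fintype.card F) (hodd : Odd (Fintype.card F)) (N : Subgroup (SpecialLinearGroup (Fin 2) F))
    (hN : N.Normal) (hne : N ≠ ⊤) : Fintype.card F * (Fintype.card F ^ 2 - 1) ≤ 2 * N.index := by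
  rcases SignalizersComponents.Components.quasisimple_normal (quasi_sl_two (F := F) (by omega)) N hN with h | h
  · exact absurd h hne
  · have h1 : (center (SpecialLinearGroup (Fin 2) F)).index ≤ N.index :=
      Nat.le_of_dvd (Nat.pos_of_ne_zero Subgroup.index_ne_zero_of_finite) (Subgroup.index_dvd_of_le h)
    have h2 := card_psl2 (two_ne hodd)
    have h3 : (center (SpecialLinearGroup (Fin 2) F)).index = Nat.card (ProjectiveSpecialLinearGroup (Fin 2) F) := rfl
    omega

theorem min_psl2 (h12 : 12 ≤ Fintype.card F) (R : Subgroup (ProjectiveSpecialLinearGroup (Fin 2) F)) (hR : R ≠ ⊤) :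
    Fintype.card F + 1 ≤ R.index :=
  (Cfsg.Agent.S0806.result (F := F) rfl (by
    simp only [Finset.mem_insert, Finset.mem_singleton]
    omega)).1 R hR

/-! ### subgroups of odd order -/

/-- the upper root group -/
def uH (F : Type*) [Field F] : Multiplicative F →* SpecialLinearGroup (Fin 2) F where
  toFun a := u a.toAdd
  map_one' := u_zero
  map_mul' _ _ := u_add _ _

/-- the lower root group -/
def lH (F : Type*) [Field F] : Multiplicative F →* SpecialLinearGroup (Fin 2) F where
  toFun a := l a.toAdd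
  map_one' := l_zero
  map_mul' _ _ := l_add _ _

theorem u_inj {a b : F} (h : (u a : SpecialLinearGroup (Fin 2) F) = u b) : a = b := by
  have h1 := congrArg (fun m : SpecialLinearGroup (Fin 2) F => m.1 0 1) h
  simpa [coe_u] using h1

theorem l_inj {a b : F} (h : (l a : SpecialLinearGroup (Fin 2) F) = l b) : a = b := by
  have h1 := congrArg (fun m : SpecialLinearGroup (Fin 2) F => m.1 1 0) h
  simpa [coe_l] using h1

theorem card_uH : Nat.card (uH F).range = Fintype.card F := by
  rw [← Nat.card_congr (MonoidHom.ofInjective (f := uH F) (fun a b h => Multiplicative.toAdd.injective (u_inj h))).toEquiv]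
  exact (Nat.card_congr Multiplicative.toAdd).trans Nat.card_eq_fintype_card

theorem card_lH : Nat.card (lH F).range = Fintype.card F := by
  rw [← Nat.card_congr (MonoidHom.ofInjective (f := lH F) (fun a b h => Multiplicative.toAdd.injective (l_inj h))).toEquiv]
  exact (Nat.card_congr Multiplicative.toAdd).trans Nat.card_eq_fintype_card

/-- the torus -/
def lam : Fˣ →* SpecialLinearGroup (Fin 2) F where
  toFun t := ⟨!![(t : F), 0; 0, ((t⁻¹ : Fˣ) : F)], by simp⟩
  map_one' := by
    apply ext_coe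
    simp [Matrix.one_fin_two]
  map_mul' a b := by
    apply ext_coe
    show !![((a * b : Fˣ) : F), 0; 0, (((a * b)⁻¹ : Fˣ) : F)] =
      !![(a : F), 0; 0, ((a⁻¹ : Fˣ) : F)] * !![(b : F), 0; 0, ((b⁻¹ : Fˣ) : F)]
    simp [mul_comm]

theorem coe_lam (t : Fˣ) : ((lam t : SpecialLinearGroup (Fin 2) F) : Matrix (Fin 2) (Fin 2) F) =
    !![(t : F), 0; 0, ((t⁻¹ : Fˣ) : F)] := rfl

theorem lam_u (t : Fˣ) (a : F) : lam t * u a * (lam t)⁻¹ = u ((t : F) * t * a) := by
  rw [mul_inv_eq_iff_eq_mul]
  apply ext_coe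
  rw [mulc, mulc, coe_u, coe_u, coe_lam]
  simp [mul_assoc, mul_comm]

theorem lam_l (t : Fˣ) (a : F) : lam t * l a * (lam t)⁻¹ = l (((t⁻¹ : Fˣ) : F) * ((t⁻¹ : Fˣ) : F) * a) := by
  rw [mul_inv_eq_iff_eq_mul]
  apply ext_coe
  rw [mulc, mulc, coe_l, coe_l, coe_lam]
  have ht : (t : F) ≠ 0 := t.ne_zero
  simp only [Matrix.mul_fin_two, Units.val_inv_eq_inv_val]
  ext i j
  fin_cases i <;> fin_cases j <;> simp
  field_simp

theorem torus (h8 : 8 ∣ Fintype.card F - 1) (Y : Subgroup Fˣ) (hY : (-1 : Fˣ) ∉ Y) : 8 ≤ Y.index := by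
  have hodd : ¬ 2 ∣ Nat.card Y := by
    intro h
    have : Fact (Nat.Prime 2) := ⟨Nat.prime_two⟩
    obtain ⟨y, hy⟩ := exists_prime_orderOf_dvd_card' 2 h
    have h1 : (y : Fˣ) ^ 2 = 1 := by
      have := pow_orderOf_eq_one y
      rw [hy] at this
      exact congrArg Subtype.val this
    have h3 : ((y : Fˣ) : F) ^ 2 = 1 := by
      have := congrArg Units.val h1
      simpa using this
    rcases sq_eq_one_iff_of_field h3 with h4 | h4
    · have h5 : y = 1 := Subtype.ext (Units.ext h4)
      rw [h5, orderOf_one] at hy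
      omega
    · apply hY
      have h5 : (y : Fˣ) = -1 := Units.ext (by rw [h4]; simp)
      rw [← h5]
      exact y.2
  have h1 := Y.card_mul_index
  rw [Nat.card_units, Nat.card_eq_fintype_card (α := F)] at h1
  rw [← h1] at h8
  have h2 : Nat.Coprime 8 (Nat.card Y) := by
    have : (8 : ℕ) = 2 ^ 3 := by norm_num
    rw [this]
    exact Nat.Coprime.pow_left 3 ((Nat.Prime.coprime_iff_not_dvd Nat.prime_two).2 hodd)
  exact Nat.le_of_dvd (Nat.pos_of_ne_zero Subgroup.index_ne_zero_of_finite) (h2.dvd_of_dvd_mul_left h8)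

theorem odd_sl2 (h2 : (2 : F) ≠ 0) (hodd : Odd (Fintype.card F)) (h8 : 8 ∣ Fintype.card F - 1)
    (X : Subgroup (SpecialLinearGroup (Fin 2) F)) (hX : (-1 : SpecialLinearGroup (Fin 2) F) ∉ X) :
    Fintype.card F * 8 ≤ X.index := by
  have hZ2 : ∀ z ∈ ({-1} : Set (SpecialLinearGroup (Fin 2) F)), z * z = 1 := by
    rintro z rfl
    rw [neg_mul_neg, one_mul]
  have hZc : ∀ g : SpecialLinearGroup (Fin 2) F, ∀ z ∈ ({-1} : Set (SpecialLinearGroup (Fin 2) F)),
      g * z * g⁻¹ ∈ ({-1} : Set (SpecialLinearGroup (Fin 2) F)) := by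
    rintro g z rfl
    show g * -1 * g⁻¹ = -1
    rw [mul_neg, mul_one, neg_mul, mul_inv_cancel]
  have hZX : ∀ z ∈ ({-1} : Set (SpecialLinearGroup (Fin 2) F)), z ∉ X := by
    rintro z rfl
    exact hX
  have hc : ∀ Y : Subgroup Fˣ, (∀ y ∈ Y, lam y ∉ ({-1} : Set (SpecialLinearGroup (Fin 2) F))) → 8 ≤ Y.index := by
    intro Y hY
    refine torus h8 Y fun h => hY _ h ?_
    show lam (-1) = -1
    apply ext_coe
    rw [coe_lam]
    ext i j
    fin_cases i <;> fin_cases j <;> simp
  by_cases h : ∀ a : F, u a ∈ X → a = 0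
  · have h1 := Cfsg.Agent.H847.IF.abs_index lam (uH F).range X (by rw [card_uH]; exact hodd) (by
      rintro t _ ⟨a, rfl⟩
      exact ⟨Multiplicative.ofAdd ((t : F) * t * a.toAdd), (lam_u t a.toAdd).symm⟩) _ hZ2 hZc hZX 8 hc
    have h3 : X ⊓ (uH F).range = ⊥ := by
      rw [Subgroup.eq_bot_iff_forall]
      rintro _ ⟨hx, a, rfl⟩
      have h4 := h a.toAdd hx
      show u a.toAdd = 1
      rw [h4, u_zero]
    rw [h3, card_uH, Subgroup.card_bot, one_mul] at h1
    exact h1
  · push Not at h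
    obtain ⟨a, ha, ha0⟩ := h
    have h : ∀ c : F, l c ∈ X → c = 0 := by
      intro c hc
      by_contra hc0
      obtain ⟨A, hA, hA1⟩ := Cfsg.Agent.H989.Fx.exists_neg_one h2 ha0 hc0 ha hc
      apply hX
      have h5 : A = -1 := ext_coe (by rw [hA1]; simp)
      rwa [← h5]
    have h1 := Cfsg.Agent.H847.IF.abs_index lam (lH F).range X (by rw [card_lH]; exact hodd) (by
      rintro t _ ⟨a, rfl⟩
      exact ⟨Multiplicative.ofAdd (((t⁻¹ : Fˣ) : F) * ((t⁻¹ : Fˣ) : F) * a.toAdd), (lam_l t a.toAdd).symm⟩) _ hZ2 hZc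
      hZX 8 hc
    have h3 : X ⊓ (lH F).range = ⊥ := by
      rw [Subgroup.eq_bot_iff_forall]
      rintro _ ⟨hx, a, rfl⟩
      have h4 := h a.toAdd hx
      show l a.toAdd = 1
      rw [h4, l_zero]
    rw [h3, card_lH, Subgroup.card_bot, one_mul] at h1
    exact h1

/-- a subgroup of `L₂(r)`, `8 ∣ r - 1`, without involutions has index at least `4 r`. -/
theorem odd_psl2 (h2 : (2 : F) ≠ 0) (hodd : Odd (Fintype.card F)) (h8 : 8 ∣ Fintype.card F - 1)
    (Y : Subgroup (ProjectiveSpecialLinearGroup (Fin 2) F)) (hY : ∀ y ∈ Y, y * y = 1 → y = 1) :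
    4 * Fintype.card F ≤ Y.index := by
  have hYo : ¬ 2 ∣ Nat.card Y := by
    intro h
    have : Fact (Nat.Prime 2) := ⟨Nat.prime_two⟩
    obtain ⟨y, hy⟩ := exists_prime_orderOf_dvd_card' 2 h
    have h1 := pow_orderOf_eq_one y
    rw [hy, pow_two] at h1
    have h3 := hY y y.2 (congrArg Subtype.val h1)
    have h4 : y = 1 := Subtype.ext h3
    rw [h4, orderOf_one] at hy
    omega
  let π : SpecialLinearGroup (Fin 2) F →* ProjectiveSpecialLinearGroup (Fin 2) F :=
    QuotientGroup.mk' (center (SpecialLinearGroup (Fin 2) F))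
  have hπ : Function.Surjective π := QuotientGroup.mk'_surjective _
  have hker : ∀ x, π x = 1 ↔ x = 1 ∨ x = -1 := by
    intro x
    rw [← mem_center2]
    exact QuotientGroup.eq_one_iff x
  let g : Y.comap π →* Y := (π.subgroupComap Y)
  have hg : Function.Surjective g := by
    rintro ⟨y, hy⟩
    obtain ⟨x, rfl⟩ := hπ y
    exact ⟨⟨x, hy⟩, rfl⟩
  have hgk : ∀ x : Y.comap π, x ∈ g.ker ↔ ((x : SpecialLinearGroup (Fin 2) F) = 1 ∨ (x : SpecialLinearGroup (Fin 2) F) = -1) := by
    intro x
    rw [MonoidHom.mem_ker, ← hker]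
    constructor
    · intro h
      exact congrArg Subtype.val h
    · intro h
      exact Subtype.ext h
  have hkc : Nat.card g.ker = 2 := by
    have h1 : Nat.card g.ker = Nat.card (center (SpecialLinearGroup (Fin 2) F)) := by
      refine Nat.card_congr
        { toFun := fun x => ⟨(x : Y.comap π), mem_center2.2 ((hgk x).1 x.2)⟩
          invFun := fun x => ⟨⟨x, ?_⟩, (hgk _).2 (mem_center2.1 x.2)⟩
          left_inv := fun x => rfl
          right_inv := fun x => rfl }
      show π x ∈ Y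
      rw [(hker x).2 (mem_center2.1 x.2)]
      exact one_mem _
    rw [h1, card_center2 h2]
  have hki : g.ker.index = Nat.card Y := by
    rw [Subgroup.index_ker, MonoidHom.range_eq_top.2 hg, Subgroup.card_top]
  obtain ⟨H, hH⟩ := Subgroup.exists_right_complement'_of_coprime (N := g.ker) (by
    rw [hkc, hki]
    exact (Nat.Prime.coprime_iff_not_dvd Nat.prime_two).2 hYo)
  have hHc : Nat.card H = Nat.card Y := by
    have h1 := hH.card_mul_card
    have h3 := g.ker.card_mul_index
    rw [hkc] at h1 h3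
    rw [hki] at h3
    omega
  have hXc : Nat.card (H.map (Y.comap π).subtype) = Nat.card Y := by
    rw [Subgroup.card_map_of_injective (Subgroup.subtype_injective _), hHc]
  have h1 := odd_sl2 h2 hodd h8 (H.map (Y.comap π).subtype) (by
    intro hmem
    apply hYo
    rw [← hXc]
    have h3 : orderOf (⟨-1, hmem⟩ : (H.map (Y.comap π).subtype : Subgroup (SpecialLinearGroup (Fin 2) F))) = 2 := by
      rw [orderOf_eq_prime_iff]
      refine ⟨Subtype.ext ?_, fun h => neg_one_ne h2 (congrArg Subtype.val h)⟩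
      show (-1 : SpecialLinearGroup (Fin 2) F) ^ 2 = 1
      rw [pow_two, neg_mul_neg, one_mul]
    have h4 := orderOf_dvd_natCard (⟨-1, hmem⟩ : (H.map (Y.comap π).subtype : Subgroup (SpecialLinearGroup (Fin 2) F)))
    exact (dvd_of_eq h3.symm).trans h4)
  have h3 := (H.map (Y.comap π).subtype).card_mul_index
  have h4 := Y.card_mul_index
  rw [hXc, card_sl2, ← card_psl2 h2, ← h4] at h3
  have h5 : (H.map (Y.comap π).subtype).index = 2 * Y.index := by
    have : 0 < Nat.card Y := Nat.card_pos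
    apply Nat.eq_of_mul_eq_mul_left this
    rw [h3]
    ring
  omega

end Gen

end Cfsg.Agent.H215.IFM
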