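import Cfsg.Agent.H215.IFM.Pure
import Cfsg.Agent.H215.IFM.SLTwo

/-!
# S5719, `Ω_8^-(q)`, `q` odd: the case of a fundamental involution (helper215)

`eight_minus` : `φ : (SL₂(q) × SL₂(q)) × SL₂(q²) → C_T(z)`.
-/

set_option autoImplicit false
set_option linter.unusedSectionVars false

namespace Cfsg.Agent.H215.IFM

open MulAction Subgroup Cfsg.Agent.H284 Cfsg.Agent.H209.Fxy
open Cfsg.Agent.LieClassical.SLTwoUnipotent (ext_coe)
open Matrix (SpecialLinearGroup ProjectiveSpecialLinearGroup)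

theorem ar1 {k : ℕ} (hk : 2 ≤ k) : 2 * (2 * k + 1) ^ 4 ≤ (2 * k + 1) ^ 2 * (((2 * k + 1) ^ 2) ^ 2 - 1) := by
  have h : 25 ≤ (2 * k + 1) ^ 2 := by nlinarith
  have e : (2 * k + 1) ^ 4 = (2 * k + 1) ^ 2 * (2 * k + 1) ^ 2 := by ring
  rw [e]
  generalize (2 * k + 1) ^ 2 = y at *
  have h1 : 2 * y ≤ y ^ 2 - 1 := by
    have h2 : 2 * y + 1 ≤ y ^ 2 := by nlinarith
    omega
  calc 2 * (y * y) = y * (2 * y) := by ring
    _ ≤ _ := Nat.mul_le_mul_left y h1

theorem ar2 {k : ℕ} (hk : 2 ≤ k) : (2 * k + 1) ^ 4 ≤ ((2 * k + 1) ^ 2 + 1) * ((2 * k + 1) * (2 * (k * (k + 1)))) := by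
  have h1 : (2 * k + 1) ^ 2 ≤ (2 * k + 1) * (2 * (k * (k + 1))) := by
    have h2 : 2 * k + 1 ≤ 2 * (k * (k + 1)) := by nlinarith
    calc (2 * k + 1) ^ 2 = (2 * k + 1) * (2 * k + 1) := by ring
      _ ≤ _ := Nat.mul_le_mul_left _ h2
  calc (2 * k + 1) ^ 4 = (2 * k + 1) ^ 2 * (2 * k + 1) ^ 2 := by ring
    _ ≤ _ := Nat.mul_le_mul (Nat.le_succ _) h1

theorem ar3 (k : ℕ) : (2 * k + 1) ^ 4 ≤ (k + 1) * (k + 1) * (4 * (2 * k + 1) ^ 2) := by
  have h1 : (2 * k + 1) ^ 2 ≤ (2 * k + 2) ^ 2 := Nat.pow_le_pow_left (by omega) 2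
  calc (2 * k + 1) ^ 4 = (2 * k + 1) ^ 2 * (2 * k + 1) ^ 2 := by ring
    _ ≤ (2 * k + 2) ^ 2 * (2 * k + 1) ^ 2 := Nat.mul_le_mul_right _ h1
    _ = _ := by ring

theorem ar4 {k : ℕ} (hk : 2 ≤ k) : (2 * k + 1) ^ 4 ≤ (2 * k + 1) * (2 * (k * (k + 1))) * (4 * (2 * k + 1) ^ 2) := by
  have h1 : 2 * k + 1 ≤ 8 * (k * (k + 1)) := by nlinarith
  calc (2 * k + 1) ^ 4 = (2 * k + 1) ^ 3 * (2 * k + 1) := by ring
    _ ≤ (2 * k + 1) ^ 3 * (8 * (k * (k + 1))) := Nat.mul_le_mul_left _ h1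
    _ = _ := by ring

theorem ar5 (k : ℕ) : (2 * k + 1) ^ 16 ≤ ((k + 1) * (4 * (2 * k + 1) ^ 2)) ^ 5 * (k + 1) := by
  have h1 : (2 * k + 1) ^ 6 ≤ (2 * k + 2) ^ 6 := Nat.pow_le_pow_left (by omega) 6
  calc (2 * k + 1) ^ 16 = (2 * k + 1) ^ 6 * (2 * k + 1) ^ 10 := by ring
    _ ≤ (2 * k + 2) ^ 6 * (2 * k + 1) ^ 10 := Nat.mul_le_mul_right _ h1
    _ ≤ 16 * ((2 * k + 2) ^ 6 * (2 * k + 1) ^ 10) := Nat.le_mul_of_pos_left _ (by norm_num)
    _ = _ := by ring

/-- the only involution of `SL₂` is `-1` -/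
theorem sq_one {F : Type*} [Field F] (h2 : (2 : F) ≠ 0) {x : SpecialLinearGroup (Fin 2) F} (hx : x * x = 1) :
    x = 1 ∨ x = -1 := by
  have h1 : x = x⁻¹ := eq_inv_of_mul_eq_one_left hx
  have h3 : ∀ i j, x.1 i j = (x⁻¹).1 i j := fun i j => congrArg (fun m : SpecialLinearGroup (Fin 2) F => m.1 i j) h1
  have e := Matrix.SpecialLinearGroup.SL2_inv_expl x
  have h00 := h3 0 0
  have h01 := h3 0 1
  have h10 := h3 1 0
  have e00 : (x⁻¹).1 0 0 = x.1 1 1 := by rw [e]; simp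
  have e01 : (x⁻¹).1 0 1 = -x.1 0 1 := by rw [e]; simp
  have e10 : (x⁻¹).1 1 0 = -x.1 1 0 := by rw [e]; simp
  rw [e00] at h00
  rw [e01] at h01
  rw [e10] at h10
  have k01 : x.1 0 1 = 0 := by
    have : (2 : F) * x.1 0 1 = 0 := by linear_combination h01
    exact (mul_eq_zero.1 this).resolve_left h2
  have k10 : x.1 1 0 = 0 := by
    have : (2 : F) * x.1 1 0 = 0 := by linear_combination h10
    exact (mul_eq_zero.1 this).resolve_left h2
  have hdet := x.2
  rw [Matrix.det_fin_two, k01, k10, ← h00] at hdet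
  have h5 : x.1 0 0 ^ 2 = 1 := by linear_combination hdet
  have h5' : (x.1 0 0 - 1) * (x.1 0 0 + 1) = 0 := by linear_combination h5
  rcases (mul_eq_zero.1 h5').imp sub_eq_zero.1 eq_neg_of_add_eq_zero_left with h6 | h6
  · left
    apply ext_coe
    ext i j
    fin_cases i <;> fin_cases j
    · simpa using h6
    · simpa using k01
    · simpa using k10
    · simpa using h00.symm.trans h6
  · right
    apply ext_coe
    ext i j
    fin_cases i <;> fin_cases j
    · simpa using h6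
    · simpa using k01
    · simpa using k10
    · simpa using h00.symm.trans h6

variable {T : Type*} [Group T] [Finite T] [IsSimpleGroup T] {A : Subgroup T} {Γ : Subgroup (MulAut T)}

/-- **The case of a fundamental involution in `Ω_8^-(q)`, `q` odd.** -/
theorem eight_minus (h : IF A Γ) (hna : ∃ a b : T, a * b ≠ b * a) {F K : Type*} [Field F] [Fintype F] [Field K]
    [Fintype K] (hodd : Odd (Fintype.card F)) (hK : Fintype.card K = Fintype.card F ^ 2)
    (φ : (SpecialLinearGroup (Fin 2) F × SpecialLinearGroup (Fin 2) F) × SpecialLinearGroup (Fin 2) K →* T) {z : T}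
    (hz : z ∈ A) (hz2 : orderOf z = 2) (hφ : ∀ x, φ x * z = z * φ x) (hker : φ ((1, 1), -1) = 1)
    (h0 : ∀ y : SpecialLinearGroup (Fin 2) K, y * y = -1 → φ ((1, 1), y) ∉ A) (h12 : ∃ a b, φ ((a, b), 1) ∉ A)
    (hcl : ∀ t ∈ A, orderOf t = 2 → ∃ x : T, x * z * x⁻¹ = t)
    (hc1 : ∀ t ∈ A, orderOf t = 2 → (∀ a, φ ((a, 1), 1) * t = t * φ ((a, 1), 1)) → t = z)
    (hc2 : ∀ t ∈ A, orderOf t = 2 → (∀ a, φ ((1, a), 1) * t = t * φ ((1, a), 1)) → t = z)
    (hN : (centralizer ({z} : Set T)).index ≤ Fintype.card F ^ 16) : False := by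
  have hKo : Odd (Fintype.card K) := by rw [hK]; exact hodd.pow
  have hK2 : (2 : K) ≠ 0 := two_ne hKo
  obtain ⟨k, hk⟩ := hodd
  have hk1 : 1 ≤ k := by
    have : 2 ≤ Fintype.card F := Fintype.one_lt_card
    omega
  have hsq : (2 * k + 1) ^ 2 = 4 * (k * (k + 1)) + 1 := by ring
  have h8 : 8 ∣ Fintype.card K - 1 := by
    rw [hK, hk, hsq, Nat.add_sub_cancel]
    obtain ⟨j, hj⟩ := (Nat.even_mul_succ_self k).two_dvd
    rw [hj]
    exact ⟨j, by ring⟩
  -- the homomorphism modulo the centre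
  have hcen : ∀ x ∈ center (SpecialLinearGroup (Fin 2) K), (φ.comp (MonoidHom.inr _ _)) x = 1 := by
    intro x hx
    rcases mem_center2.1 hx with rfl | rfl
    · exact map_one _
    · exact hker
  let ψ : ProjectiveSpecialLinearGroup (Fin 2) K →* T := QuotientGroup.lift _ (φ.comp (MonoidHom.inr _ _)) hcen
  have hψ : ∀ y, ψ (QuotientGroup.mk y) = φ ((1, 1), y) := fun y => rfl
  let Φ : (SpecialLinearGroup (Fin 2) F × SpecialLinearGroup (Fin 2) F) × ProjectiveSpecialLinearGroup (Fin 2) K →* T :=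
    MonoidHom.noncommCoprod (φ.comp (MonoidHom.inl _ _)) ψ (by
      intro x y
      induction y using QuotientGroup.induction_on with
      | H y =>
        show φ (x, 1) * φ ((1, 1), y) = φ ((1, 1), y) * φ (x, 1)
        rw [← map_mul, ← map_mul]
        congr 1
        refine Prod.ext ?_ ?_
        · show x * 1 = 1 * x
          rw [mul_one, one_mul]
        · show 1 * y = y * 1
          rw [mul_one, one_mul])
  have hΦ : ∀ x y, Φ (x, QuotientGroup.mk y) = φ (x, y) := by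
    intro x y
    show φ (x, 1) * φ (1, y) = φ (x, y)
    rw [← map_mul]
    congr 1
    exact Prod.ext (mul_one x) (one_mul y)
  have hΦ1 : ∀ x, Φ (x, 1) = φ (x, 1) := fun x => hΦ x 1
  have hΦc : ∀ x, Φ x * z = z * Φ x := by
    rintro ⟨x, y⟩
    induction y using QuotientGroup.induction_on with
    | H y => rw [hΦ]; exact hφ _
  have h0' : ∀ y : ProjectiveSpecialLinearGroup (Fin 2) K, y * y = 1 → y ≠ 1 → Φ ((1, 1), y) ∉ A := by
    intro y
    induction y using QuotientGroup.induction_on with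
    | H y =>
      intro hy hne
      have h1 : y * y ∈ center (SpecialLinearGroup (Fin 2) K) := (QuotientGroup.eq_one_iff (y * y)).1 hy
      rw [hΦ]
      rcases mem_center2.1 h1 with h2 | h2
      · exfalso
        apply hne
        exact (QuotientGroup.eq_one_iff y).2 (mem_center2.2 (sq_one hK2 h2))
      · exact h0 y h2
  have hcp := card_psl2 (F := K) hK2
  rw [hK] at hcp
  by_cases hk2 : k = 1
  · -- `q = 3`
    subst hk2
    rw [hk] at hN hK
    have hr : Φ.range ≤ centralizer ({z} : Set T) := by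
      rintro _ ⟨x, rfl⟩
      exact mem_centralizer_singleton_iff.2 (hΦc x)
    have h1 := card_invol h hna hz hz2 hr
    have h2 : (A.comap Φ).index = A.relIndex Φ.range := Subgroup.index_comap A Φ
    rw [← h2, index_fst] at h1
    have h3 : 4 * Fintype.card K ≤ ((A.comap Φ).comap (MonoidHom.inr _ _)).index :=
      odd_psl2 hK2 hKo h8 _ fun y hy hyy => by
        by_contra hne
        exact h0' y hyy hne hy
    have h4 : 0 < ((A.comap Φ).map (MonoidHom.fst _ _)).index := Nat.pos_of_ne_zero Subgroup.index_ne_zero_of_finite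
    have h5 : 0 < {t : T | t ∈ A ∧ ∃ x : T, x * z * x⁻¹ = t}.ncard :=
      (Set.ncard_pos (Set.toFinite _)).2 ⟨z, hz, 1, by simp⟩
    have h6 : 36 ≤ ((A.comap Φ).map (MonoidHom.fst _ _)).index * ((A.comap Φ).comap (MonoidHom.inr _ _)).index := by
      refine le_trans ?_ (Nat.le_mul_of_pos_left _ h4)
      rw [hK] at h3
      omega
    have h7 := Nat.mul_le_mul (Nat.pow_le_pow_left h6 5) h5
    norm_num at h7 hN
    omega
  · have h5 : 5 ≤ Fintype.card F := by omega
    have hodd' : Odd (Fintype.card F) := ⟨k, hk⟩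
    have hsimple : IsSimpleGroup (ProjectiveSpecialLinearGroup (Fin 2) K) :=
      Matrix.ProjectiveSpecialLinearGroup.rank_two_simple (by
        rw [Nat.card_eq_fintype_card, hK]
        nlinarith)
    have hc0 : Fintype.card F * (Fintype.card F ^ 2 - 1) = 2 * ((2 * k + 1) * (2 * (k * (k + 1)))) := by
      rw [hk, hsq, Nat.add_sub_cancel]
      ring
    have hq : (Fintype.card F : ℤ) = 2 * k + 1 := by rw [hk]; push_cast; ring
    have hkk : 2 ≤ k := by omega
    refine z_case h hna (G₁ := SpecialLinearGroup (Fin 2) F) (G₂ := SpecialLinearGroup (Fin 2) F)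
      (G₀ := ProjectiveSpecialLinearGroup (Fin 2) K) (m := k + 1) (c := (2 * k + 1) * (2 * (k * (k + 1))))
      (m0 := (2 * k + 1) ^ 2 + 1) (o := 4 * (2 * k + 1) ^ 2) (b := (2 * k + 1) ^ 4) ?_ ?_ ?_ ?_ ?_ ?_ ?_ ?_ ?_ ?_ ?_
      Φ hz hz2 hΦc h0' ?_ hcl ?_ ?_ ?_ ?_
    · intro R hR
      have := min_sl2 h5 hodd' hR
      omega
    · intro R hR
      have := min_sl2 h5 hodd' hR
      omega
    · intro N hN hne
      have := norm_sl2 h5 hodd' N hN hne
      omega
    · intro N hN hne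
      have := norm_sl2 h5 hodd' N hN hne
      omega
    · intro R hR
      have := min_psl2 (F := K) (by rw [hK, hk]; nlinarith) R hR
      rwa [hK, hk] at this
    · intro Y hY
      have := odd_psl2 hK2 hKo h8 Y hY
      rwa [hK, hk] at this
    · nlinarith
    · rw [hk] at hcp
      have h7 := ar1 hkk
      omega
    · exact ar2 hkk
    · exact ar3 k
    · exact ar4 hkk
    · obtain ⟨a, b, hab⟩ := h12
      exact ⟨a, b, by rw [hΦ1]; exact hab⟩
    · intro t ht ht2 hc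
      exact hc1 t ht ht2 fun a => by rw [← hΦ1]; exact hc a
    · intro t ht ht2 hc
      exact hc2 t ht ht2 fun a => by rw [← hΦ1]; exact hc a
    · refine hN.trans ?_
      rw [hk, ← pow_mul]
      exact Nat.pow_le_pow_right (by omega) (by norm_num)
    · refine hN.trans ?_
      rw [hk]
      exact ar5 k

end Cfsg.Agent.H215.IFM
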