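import Cfsg.Agent.H999.IF.EngB
import Cfsg.Agent.H680.IF.EngA

/-!
# S5719, `POmega_8^-(q)`, `q` odd: the pure group part of the case of a fundamental involution (helper215)

* `pure_prod` : a subgroup `X` of `(G₁ × G₂) × G₀` (`G₁ = G₂ = SL₂(q)`, `G₀ = L₂(q²)`) which meets `G₀` in a group of odd order
  and does not contain `G₁ × G₂` has large index or contains `G₁` or `G₂`;
* `card_invol` : `f(z)^5 |z^T ∩ A| < |z^T|`;
* `z_case` : the contradiction.
-/

set_option autoImplicit false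
set_option linter.unusedSectionVars false

namespace Cfsg.Agent.H215.IFM

open MulAction Subgroup Cfsg.Agent.H284 Cfsg.Agent.H209.Fxy

/-! ### subgroups of direct products -/

section Prod

variable {G H : Type*} [Group G] [Group H] [Finite G] [Finite H]

theorem card_prod_fst (X : Subgroup (G × H)) :
    Nat.card X = Nat.card (X.map (MonoidHom.fst G H)) * Nat.card (X.comap (MonoidHom.inr G H)) := by
  let g : X →* G := (MonoidHom.fst G H).comp X.subtype
  have h1 : g.ker.index = Nat.card g.range := Subgroup.index_ker g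
  have h2 : g.range = X.map (MonoidHom.fst G H) := by
    rw [MonoidHom.range_comp, Subgroup.range_subtype]
  have h3 : Nat.card g.ker = Nat.card (X.comap (MonoidHom.inr G H)) := by
    refine Nat.card_congr
      { toFun := fun x => ⟨(x : X).1.2, ?_⟩
        invFun := fun y => ⟨⟨(1, (y : H)), y.2⟩, rfl⟩
        left_inv := ?_
        right_inv := fun y => rfl }
    · have h4 : (x : X).1.1 = 1 := x.2
      have h5 : ((1 : G), (x : X).1.2) = (x : X).1 := Prod.ext h4.symm rfl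
      show ((1 : G), (x : X).1.2) ∈ X
      rw [h5]
      exact (x : X).2
    · intro x
      apply Subtype.ext
      apply Subtype.ext
      have h4 : (x : X).1.1 = 1 := x.2
      exact Prod.ext h4.symm rfl
  rw [← Subgroup.card_mul_index g.ker, h1, h2, h3, mul_comm]

theorem card_prod_snd (X : Subgroup (G × H)) :
    Nat.card X = Nat.card (X.map (MonoidHom.snd G H)) * Nat.card (X.comap (MonoidHom.inl G H)) := by
  let g : X →* H := (MonoidHom.snd G H).comp X.subtype
  have h1 : g.ker.index = Nat.card g.range := Subgroup.index_ker g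
  have h2 : g.range = X.map (MonoidHom.snd G H) := by
    rw [MonoidHom.range_comp, Subgroup.range_subtype]
  have h3 : Nat.card g.ker = Nat.card (X.comap (MonoidHom.inl G H)) := by
    refine Nat.card_congr
      { toFun := fun x => ⟨(x : X).1.1, ?_⟩
        invFun := fun y => ⟨⟨((y : G), 1), y.2⟩, rfl⟩
        left_inv := ?_
        right_inv := fun y => rfl }
    · have h4 : (x : X).1.2 = 1 := x.2
      have h5 : ((x : X).1.1, (1 : H)) = (x : X).1 := Prod.ext rfl h4.symm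
      show ((x : X).1.1, (1 : H)) ∈ X
      rw [h5]
      exact (x : X).2
    · intro x
      apply Subtype.ext
      apply Subtype.ext
      have h4 : (x : X).1.2 = 1 := x.2
      exact Prod.ext rfl h4.symm
  rw [← Subgroup.card_mul_index g.ker, h1, h2, h3, mul_comm]

theorem index_fst (X : Subgroup (G × H)) :
    X.index = (X.map (MonoidHom.fst G H)).index * (X.comap (MonoidHom.inr G H)).index := by
  have h0 := X.card_mul_index
  have h1 := (X.map (MonoidHom.fst G H)).card_mul_index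
  have h2 := (X.comap (MonoidHom.inr G H)).card_mul_index
  have h3 := card_prod_fst X
  have h4 : Nat.card (G × H) = Nat.card G * Nat.card H := Nat.card_prod G H
  rw [h4, ← h1, ← h2, h3] at h0
  have h5 : 0 < Nat.card (X.map (MonoidHom.fst G H)) * Nat.card (X.comap (MonoidHom.inr G H)) :=
    Nat.mul_pos Nat.card_pos Nat.card_pos
  apply Nat.eq_of_mul_eq_mul_left h5
  rw [h0]
  ring

theorem index_snd (X : Subgroup (G × H)) :
    X.index = (X.map (MonoidHom.snd G H)).index * (X.comap (MonoidHom.inl G H)).index := by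
  have h0 := X.card_mul_index
  have h1 := (X.map (MonoidHom.snd G H)).card_mul_index
  have h2 := (X.comap (MonoidHom.inl G H)).card_mul_index
  have h3 := card_prod_snd X
  have h4 : Nat.card (G × H) = Nat.card G * Nat.card H := Nat.card_prod G H
  rw [h4, ← h1, ← h2, h3] at h0
  have h5 : 0 < Nat.card (X.map (MonoidHom.snd G H)) * Nat.card (X.comap (MonoidHom.inl G H)) :=
    Nat.mul_pos Nat.card_pos Nat.card_pos
  apply Nat.eq_of_mul_eq_mul_left h5
  rw [h0]
  ring

theorem normal_inl (X : Subgroup (G × H)) (h : X.map (MonoidHom.fst G H) = ⊤) :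
    (X.comap (MonoidHom.inl G H)).Normal := by
  constructor
  intro a ha g
  have hg : g ∈ X.map (MonoidHom.fst G H) := by rw [h]; exact mem_top _
  obtain ⟨⟨g', y⟩, hgy, rfl⟩ := hg
  have h1 := X.mul_mem (X.mul_mem hgy (show ((a, 1) : G × H) ∈ X from ha)) (X.inv_mem hgy)
  show ((g' * a * g'⁻¹, 1) : G × H) ∈ X
  have h2 : ((g', y) * (a, 1) * (g', y)⁻¹ : G × H) = (g' * a * g'⁻¹, 1) := by
    refine Prod.ext rfl ?_
    show y * 1 * y⁻¹ = 1
    rw [mul_one, mul_inv_cancel]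
  rwa [h2] at h1

theorem normal_inr (X : Subgroup (G × H)) (h : X.map (MonoidHom.snd G H) = ⊤) :
    (X.comap (MonoidHom.inr G H)).Normal := by
  constructor
  intro a ha g
  have hg : g ∈ X.map (MonoidHom.snd G H) := by rw [h]; exact mem_top _
  obtain ⟨⟨y, g'⟩, hgy, rfl⟩ := hg
  have h1 := X.mul_mem (X.mul_mem hgy (show ((1, a) : G × H) ∈ X from ha)) (X.inv_mem hgy)
  show ((1, g' * a * g'⁻¹) : G × H) ∈ X
  have h2 : ((y, g') * (1, a) * (y, g')⁻¹ : G × H) = (1, g' * a * g'⁻¹) := by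
    refine Prod.ext ?_ rfl
    show y * 1 * y⁻¹ = 1
    rw [mul_one, mul_inv_cancel]
  rwa [h2] at h1

/-- **linked factors** -/
theorem link {m0 c : ℕ} [IsSimpleGroup H] (hmin0 : ∀ R : Subgroup H, R ≠ ⊤ → m0 ≤ R.index)
    (hnorm : ∀ N : Subgroup G, N.Normal → N ≠ ⊤ → c ≤ N.index) (X : Subgroup (G × H))
    (hfst : ∀ a : G, ∃ y : H, (a, y) ∈ X) (hne : X.comap (MonoidHom.inr G H) ≠ ⊤) :
    (∀ a : G, (a, (1 : H)) ∈ X) ∨ Nat.card H ≤ (X.comap (MonoidHom.inr G H)).index ∨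
      m0 * c ≤ (X.comap (MonoidHom.inr G H)).index := by
  have h1 : X.map (MonoidHom.fst G H) = ⊤ := by
    rw [Subgroup.eq_top_iff']
    intro a
    obtain ⟨y, hy⟩ := hfst a
    exact ⟨(a, y), hy, rfl⟩
  have h2 : (X.comap (MonoidHom.inr G H)).index =
      (X.map (MonoidHom.snd G H)).index * (X.comap (MonoidHom.inl G H)).index := by
    rw [← index_snd, index_fst, h1, Subgroup.index_top, one_mul]
  by_cases hN : X.comap (MonoidHom.inl G H) = ⊤
  · left
    intro a
    have h3 : a ∈ X.comap (MonoidHom.inl G H) := by rw [hN]; exact mem_top _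
    exact h3
  · right
    have h3 := hnorm _ (normal_inl X h1) hN
    by_cases hR : X.map (MonoidHom.snd G H) = ⊤
    · left
      rcases (normal_inr X hR).eq_bot_or_eq_top with h4 | h4
      · rw [h4, Subgroup.index_bot]
      · exact absurd h4 hne
    · right
      rw [h2]
      exact Nat.mul_le_mul (hmin0 _ hR) h3

/-- two factors -/
theorem two_factors {m c b : ℕ} (hmin1 : ∀ R : Subgroup G, R ≠ ⊤ → m ≤ R.index)
    (hmin2 : ∀ R : Subgroup H, R ≠ ⊤ → m ≤ R.index)
    (hnorm : ∀ N : Subgroup H, N.Normal → N ≠ ⊤ → c ≤ N.index) (P : Subgroup (G × H)) (hb1 : b ≤ m * m) (hb2 : b ≤ c)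
    (h1 : P.comap (MonoidHom.inl G H) ≠ ⊤) (h2 : P.comap (MonoidHom.inr G H) ≠ ⊤) : b ≤ P.index := by
  by_cases hR : P.map (MonoidHom.snd G H) = ⊤
  · rw [index_fst]
    refine hb2.trans ((hnorm _ (normal_inr P hR) h2).trans ?_)
    exact Nat.le_mul_of_pos_left _ (Nat.pos_of_ne_zero Subgroup.index_ne_zero_of_finite)
  · rw [index_snd]
    exact hb1.trans (Nat.mul_le_mul (hmin2 _ hR) (hmin1 _ h1))

end Prod

/-! ### the pure group part -/

section Pure

variable {G₁ G₂ G₀ : Type*} [Group G₁] [Group G₂] [Group G₀] [Finite G₁] [Finite G₂] [Finite G₀]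

/-- **The pure group part.** `b` : the large index. -/
theorem pure_prod {m c m0 o b : ℕ} [IsSimpleGroup G₀] (hmin1 : ∀ R : Subgroup G₁, R ≠ ⊤ → m ≤ R.index)
    (hmin2 : ∀ R : Subgroup G₂, R ≠ ⊤ → m ≤ R.index)
    (hnorm1 : ∀ N : Subgroup G₁, N.Normal → N ≠ ⊤ → c ≤ N.index)
    (hnorm2 : ∀ N : Subgroup G₂, N.Normal → N ≠ ⊤ → c ≤ N.index)
    (hmin0 : ∀ R : Subgroup G₀, R ≠ ⊤ → m0 ≤ R.index)
    (hodd : ∀ Y : Subgroup G₀, (∀ y ∈ Y, y * y = 1 → y = 1) → o ≤ Y.index) (ho : 1 < o)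
    (hb1 : b ≤ Nat.card G₀) (hb2 : b ≤ m0 * c) (hb3 : b ≤ m * m * o) (hb4 : b ≤ c * o)
    (X : Subgroup ((G₁ × G₂) × G₀)) (h0 : ∀ y : G₀, ((1, 1), y) ∈ X → y * y = 1 → y = 1)
    (h12 : ∃ a b, ((a, b), (1 : G₀)) ∉ X) :
    b ≤ X.index ∨ ((∀ a : G₁, ((a, 1), 1) ∈ X) ∨ (∀ a : G₂, ((1, a), 1) ∈ X)) ∧ m * o ≤ X.index := by
  set S₀ : Subgroup G₀ := X.comap (MonoidHom.inr (G₁ × G₂) G₀) with hS₀
  set P : Subgroup (G₁ × G₂) := X.map (MonoidHom.fst (G₁ × G₂) G₀) with hP
  have hidx : X.index = P.index * S₀.index := index_fst X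
  have hS : o ≤ S₀.index := hodd S₀ fun y hy h => h0 y hy h
  have hSne : S₀ ≠ ⊤ := by
    intro h
    rw [h, Subgroup.index_top] at hS
    omega
  have hPpos : 0 < P.index := Nat.pos_of_ne_zero Subgroup.index_ne_zero_of_finite
  have hSP : S₀.index ≤ X.index := by
    rw [hidx]
    exact Nat.le_mul_of_pos_left _ hPpos
  by_cases hbX : b ≤ X.index
  · exact Or.inl hbX
  right
  -- the factor `G₁`
  have k1 : P.comap (MonoidHom.inl G₁ G₂) = ⊤ → ∀ a : G₁, ((a, 1), 1) ∈ X := by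
    intro h
    let j : G₁ × G₀ →* (G₁ × G₂) × G₀ := (MonoidHom.inl G₁ G₂).prodMap (MonoidHom.id G₀)
    have h3 := link hmin0 hnorm1 (X.comap j) (by
      intro a
      have h4 : a ∈ P.comap (MonoidHom.inl G₁ G₂) := by rw [h]; exact mem_top _
      obtain ⟨⟨p, y⟩, hx, he⟩ := h4
      refine ⟨y, ?_⟩
      have he' : p = (a, 1) := he
      show ((a, 1), y) ∈ X
      rw [← he']
      exact hx) hSne
    rcases h3 with h3 | h3 | h3
    · exact h3
    · exact absurd (hb1.trans (h3.trans hSP)) hbX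
    · exact absurd (hb2.trans (h3.trans hSP)) hbX
  have k2 : P.comap (MonoidHom.inr G₁ G₂) = ⊤ → ∀ a : G₂, ((1, a), 1) ∈ X := by
    intro h
    let j : G₂ × G₀ →* (G₁ × G₂) × G₀ := (MonoidHom.inr G₁ G₂).prodMap (MonoidHom.id G₀)
    have h3 := link hmin0 hnorm2 (X.comap j) (by
      intro a
      have h4 : a ∈ P.comap (MonoidHom.inr G₁ G₂) := by rw [h]; exact mem_top _
      obtain ⟨⟨p, y⟩, hx, he⟩ := h4
      refine ⟨y, ?_⟩
      have he' : p = (1, a) := he
      show ((1, a), y) ∈ X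
      rw [← he']
      exact hx) hSne
    rcases h3 with h3 | h3 | h3
    · exact h3
    · exact absurd (hb1.trans (h3.trans hSP)) hbX
    · exact absurd (hb2.trans (h3.trans hSP)) hbX
  by_cases e1 : P.comap (MonoidHom.inl G₁ G₂) = ⊤
  · by_cases e2 : P.comap (MonoidHom.inr G₁ G₂) = ⊤
    · exfalso
      obtain ⟨a, b, hab⟩ := h12
      apply hab
      have h3 := X.mul_mem (k1 e1 a) (k2 e2 b)
      have h4 : (((a, 1), 1) * ((1, b), 1) : (G₁ × G₂) × G₀) = ((a, b), 1) := by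
        refine Prod.ext (Prod.ext ?_ ?_) ?_
        · exact mul_one a
        · exact one_mul b
        · exact mul_one 1
      rwa [h4] at h3
    · refine ⟨Or.inl (k1 e1), ?_⟩
      rw [hidx]
      refine Nat.mul_le_mul ?_ hS
      rw [index_fst]
      refine (hmin2 _ e2).trans ?_
      exact Nat.le_mul_of_pos_left _ (Nat.pos_of_ne_zero Subgroup.index_ne_zero_of_finite)
  · by_cases e2 : P.comap (MonoidHom.inr G₁ G₂) = ⊤
    · refine ⟨Or.inr (k2 e2), ?_⟩
      rw [hidx]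
      refine Nat.mul_le_mul ?_ hS
      rw [index_snd]
      refine (hmin1 _ e1).trans ?_
      exact Nat.le_mul_of_pos_left _ (Nat.pos_of_ne_zero Subgroup.index_ne_zero_of_finite)
    · exfalso
      apply hbX
      rw [hidx]
      rcases le_total (m * m) c with h | h
      · exact hb3.trans (Nat.mul_le_mul (two_factors hmin1 hmin2 hnorm2 P le_rfl h e1 e2) hS)
      · exact hb4.trans (Nat.mul_le_mul (two_factors hmin1 hmin2 hnorm2 P h le_rfl e1 e2) hS)

end Pure

/-! ### the involutions of `A` -/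

section Inv

variable {T : Type*} [Group T] [Finite T] [IsSimpleGroup T] {A : Subgroup T} {Γ : Subgroup (MulAut T)}

/-- `f(z)^5 |z^T ∩ A| < |z^T|` -/
theorem card_invol (h : IF A Γ) (hna : ∃ a b : T, a * b ≠ b * a) {z : T} (hz : z ∈ A) (h2 : orderOf z = 2) {B : Subgroup T}
    (hB : B ≤ centralizer ({z} : Set T)) :
    A.relIndex B ^ 5 * {t : T | t ∈ A ∧ ∃ x : T, x * z * x⁻¹ = t}.ncard < (centralizer ({z} : Set T)).index := by
  have hσ : MulAut.conj z ∈ Γ := (h.conj z).2 hz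
  obtain ⟨ho, hcl, -, -, -⟩ := H999.IFB.IF.E2' h hna hz h2
  have h1 := H999.IFB.IF.fix_formula' h hσ
  have h3 := h.small _ hσ ho
  have h4 := H999.IFB.fx_pos A (MulAut.conj z)
  have hinj : Function.Injective (MulAut.conj : T →* MulAut T) := by
    rw [injective_iff_map_eq_one]
    intro y hy
    apply H999.IFB.center_of hna
    intro x
    have h5 := congrArg (fun τ : MulAut T => τ x) hy
    simp only [MulAut.conj_apply, MulAut.one_apply] at h5
    rw [mul_inv_eq_iff_eq_mul] at h5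
    exact h5
  have h6 : {t : T | t ∈ A ∧ ∃ x : T, x * z * x⁻¹ = t}.ncard ≤ (H999.IFB.icl (MulAut.conj z) ∩ (Γ : Set (MulAut T))).ncard := by
    rw [← Set.ncard_image_of_injective _ hinj]
    refine Set.ncard_le_ncard ?_ (Set.toFinite _)
    rintro _ ⟨t, ⟨ht, x, rfl⟩, rfl⟩
    refine ⟨⟨x, ?_⟩, (h.conj _).2 ht⟩
    rw [map_mul, map_mul, map_inv]
  have h7 : A.relIndex B ≤ fx A (MulAut.conj z) := by
    refine (H999.IFB.IF.E1 h hσ ho (B := B) ?_).1
    intro b hb
    have h8 := mem_centralizer_singleton_iff.1 (hB hb)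
    rw [MulAut.conj_apply, mul_inv_eq_iff_eq_mul]
    exact h8.symm
  rw [← hcl]
  have h9 : fx A (MulAut.conj z) * (fx A (MulAut.conj z) ^ 5 * (H999.IFB.icl (MulAut.conj z) ∩ (Γ : Set (MulAut T))).ncard) <
      fx A (MulAut.conj z) * (H999.IFB.icl (MulAut.conj z)).ncard := by
    rw [h1]
    have h10 : 0 < (H999.IFB.icl (MulAut.conj z) ∩ (Γ : Set (MulAut T))).ncard :=
      (Set.ncard_pos (Set.toFinite _)).2 ⟨_, ⟨1, by simp⟩, hσ⟩
    calc fx A (MulAut.conj z) * (fx A (MulAut.conj z) ^ 5 * (H999.IFB.icl (MulAut.conj z) ∩ (Γ : Set (MulAut T))).ncard)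
        = fx A (MulAut.conj z) ^ 6 * (H999.IFB.icl (MulAut.conj z) ∩ (Γ : Set (MulAut T))).ncard := by ring
      _ < A.index * (H999.IFB.icl (MulAut.conj z) ∩ (Γ : Set (MulAut T))).ncard := Nat.mul_lt_mul_of_pos_right h3 h10
  have h11 := Nat.lt_of_mul_lt_mul_left h9
  refine lt_of_le_of_lt ?_ h11
  exact Nat.mul_le_mul (Nat.pow_le_pow_left h7 5) h6

/-- If the only involution of `A` is `z` then `C_T(z) ≤ A`. -/
theorem cent_le (h : IF A Γ) {z : T} (hz : z ∈ A) (h2 : orderOf z = 2) (huni : ∀ t ∈ A, orderOf t = 2 → t = z) :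
    centralizer ({z} : Set T) ≤ A := by
  intro x hx
  have hx' := mem_centralizer_singleton_iff.1 hx
  refine H680.Fxy.IF.norm h (K := zpowers z) ?_ ?_ ?_ ?_
  · rw [zpowers_le]
    exact hz
  · intro σ hσ k hk
    obtain ⟨i, rfl⟩ := mem_zpowers_iff.1 hk
    have h3 : σ z = z := by
      refine huni _ ((h.inv σ hσ z).2 hz) ?_
      rw [MulEquiv.orderOf_eq σ z, h2]
    rw [map_zpow, h3]
    exact zpow_mem (mem_zpowers z) i
  · rw [Ne, zpowers_eq_bot]
    rintro rfl
    rw [orderOf_one] at h2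
    omega
  · intro k hk
    obtain ⟨i, rfl⟩ := mem_zpowers_iff.1 hk
    have h3 : x * z ^ i = z ^ i * x := by
      have h4 : Commute x z := hx'
      exact (h4.zpow_right i).eq
    rw [h3, mul_inv_cancel_right]
    exact zpow_mem (mem_zpowers z) i

end Inv

/-! ### the case of a fundamental involution -/

section Z

variable {T : Type*} [Group T] [Finite T] [IsSimpleGroup T] {A : Subgroup T} {Γ : Subgroup (MulAut T)}
  {G₁ G₂ G₀ : Type*} [Group G₁] [Group G₂] [Group G₀] [Finite G₁] [Finite G₂] [Finite G₀]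

/-- a factor of minimal index at least `m` centralises the elements of an invariant set of less than `m` elements -/
theorem orbit_triv {G : Type*} [Group G] [Finite G] (j : G →* T) {m : ℕ}
    (hmin : ∀ R : Subgroup G, R ≠ ⊤ → m ≤ R.index) (S : Set T) (hS : S.ncard < m)
    (hSc : ∀ t ∈ S, ∀ a, j a * t * (j a)⁻¹ ∈ S) : ∀ t ∈ S, ∀ a, j a * t = t * j a := by
  intro t ht a
  letI : MulAction G T := MulAction.compHom T ((MulAut.conj : T →* MulAut T).comp j)
  have hsm : ∀ (b : G) (s : T), b • s = j b * s * (j b)⁻¹ := fun b s => rfl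
  have h1 : (stabilizer G t).index ≤ S.ncard := by
    rw [MulAction.index_stabilizer]
    refine Set.ncard_le_ncard ?_ (Set.toFinite _)
    rintro _ ⟨b, rfl⟩
    exact hSc t ht b
  by_contra hcon
  have h2 : stabilizer G t ≠ ⊤ := by
    intro h
    have h3 : a ∈ stabilizer G t := by rw [h]; exact mem_top _
    rw [mem_stabilizer_iff, hsm, mul_inv_eq_iff_eq_mul] at h3
    exact hcon h3
  have h3 := hmin _ h2
  omega

/-- **The case of a fundamental involution `z`** in `Ω_8^-(q)`: `φ : (SL₂(q) × SL₂(q)) × L₂(q²) → C_T(z)`. -/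
theorem z_case (h : IF A Γ) (hna : ∃ a b : T, a * b ≠ b * a) {m c m0 o b : ℕ} [IsSimpleGroup G₀]
    (hmin1 : ∀ R : Subgroup G₁, R ≠ ⊤ → m ≤ R.index)
    (hmin2 : ∀ R : Subgroup G₂, R ≠ ⊤ → m ≤ R.index)
    (hnorm1 : ∀ N : Subgroup G₁, N.Normal → N ≠ ⊤ → c ≤ N.index)
    (hnorm2 : ∀ N : Subgroup G₂, N.Normal → N ≠ ⊤ → c ≤ N.index)
    (hmin0 : ∀ R : Subgroup G₀, R ≠ ⊤ → m0 ≤ R.index)
    (hodd : ∀ Y : Subgroup G₀, (∀ y ∈ Y, y * y = 1 → y = 1) → o ≤ Y.index) (ho : 1 < o)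
    (hb1 : b ≤ Nat.card G₀) (hb2 : b ≤ m0 * c) (hb3 : b ≤ m * m * o) (hb4 : b ≤ c * o)
    (φ : (G₁ × G₂) × G₀ →* T) {z : T} (hz : z ∈ A) (hz2 : orderOf z = 2) (hφ : ∀ x, φ x * z = z * φ x)
    (h0 : ∀ y : G₀, y * y = 1 → y ≠ 1 → φ ((1, 1), y) ∉ A) (h12 : ∃ a b, φ ((a, b), 1) ∉ A)
    (hcl : ∀ t ∈ A, orderOf t = 2 → ∃ x : T, x * z * x⁻¹ = t)
    (hc1 : ∀ t ∈ A, orderOf t = 2 → (∀ a : G₁, φ ((a, 1), 1) * t = t * φ ((a, 1), 1)) → t = z)
    (hc2 : ∀ t ∈ A, orderOf t = 2 → (∀ a : G₂, φ ((1, a), 1) * t = t * φ ((1, a), 1)) → t = z)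
    (hN1 : (centralizer ({z} : Set T)).index ≤ b ^ 5) (hN2 : (centralizer ({z} : Set T)).index ≤ (m * o) ^ 5 * m) :
    False := by
  have hr : φ.range ≤ centralizer ({z} : Set T) := by
    rintro _ ⟨x, rfl⟩
    exact mem_centralizer_singleton_iff.2 (hφ x)
  have hidx : (A.comap φ).index = A.relIndex φ.range := Subgroup.index_comap A φ
  have hcard := card_invol h hna hz hz2 hr
  rw [← hidx] at hcard
  set S : Set T := {t : T | t ∈ A ∧ ∃ x : T, x * z * x⁻¹ = t} with hS
  have hS2 : ∀ t ∈ S, orderOf t = 2 := by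
    rintro _ ⟨-, x, rfl⟩
    have h1 : x * z * x⁻¹ = MulAut.conj x z := (MulAut.conj_apply x z).symm
    rw [h1, MulEquiv.orderOf_eq, hz2]
  have hSpos : 0 < S.ncard := (Set.ncard_pos (Set.toFinite _)).2 ⟨z, hz, 1, by simp⟩
  have hSm : m * o ≤ (A.comap φ).index → S.ncard < m := by
    intro h1
    by_contra hcon
    push Not at hcon
    have h2 : (m * o) ^ 5 * m ≤ (A.comap φ).index ^ 5 * S.ncard := Nat.mul_le_mul (Nat.pow_le_pow_left h1 5) hcon
    omega
  have fin : (∀ t ∈ S, t = z) → False := by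
    intro h1
    obtain ⟨a, b, hab⟩ := h12
    exact hab (cent_le h hz hz2 (fun t ht ht2 => h1 t ⟨ht, hcl t ht ht2⟩) (mem_centralizer_singleton_iff.2 (hφ _)))
  have hconj : ∀ g ∈ A, ∀ t ∈ S, g * t * g⁻¹ ∈ S := by
    rintro g hg _ ⟨ht, x, rfl⟩
    refine ⟨A.mul_mem (A.mul_mem hg ht) (A.inv_mem hg), g * x, ?_⟩
    group
  rcases pure_prod hmin1 hmin2 hnorm1 hnorm2 hmin0 hodd ho hb1 hb2 hb3 hb4 (A.comap φ) (by
      intro y hy hyy
      by_contra hne
      exact h0 y hyy hne hy) h12 with h1 | ⟨h1, h2⟩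
  · have h3 : b ^ 5 ≤ (A.comap φ).index ^ 5 * S.ncard :=
      (Nat.pow_le_pow_left h1 5).trans (Nat.le_mul_of_pos_right _ hSpos)
    omega
  · have h3 := hSm h2
    rcases h1 with h1 | h1
    · have h4 := orbit_triv (φ.comp ((MonoidHom.inl (G₁ × G₂) G₀).comp (MonoidHom.inl G₁ G₂))) hmin1 S h3
        (fun t ht a => hconj _ (h1 a) t ht)
      exact fin fun t ht => hc1 t ht.1 (hS2 t ht) fun a => h4 t ht a
    · have h4 := orbit_triv (φ.comp ((MonoidHom.inl (G₁ × G₂) G₀).comp (MonoidHom.inr G₁ G₂))) hmin2 S h3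
        (fun t ht a => hconj _ (h1 a) t ht)
      exact fin fun t ht => hc2 t ht.1 (hS2 t ht) fun a => h4 t ht a

end Z

end Cfsg.Agent.H215.IFM
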